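import Cfsg.Agent.H257.El.Top
import Cfsg.Agent.H87.TitsAbs

/-!
# S4247: the Tits group has no subgroup of order 351 (helper309), abstract part

A group of order `351 = 27 * 13` without elements of order `39` has a normal subgroup of order `27` and the centre of it is
centralized by the elements of order `13` unless it is the whole subgroup.
-/

set_option autoImplicit false

namespace Cfsg.Agent.H309.TT

open Subgroup

universe u

theorem pmul {G : Type*} [Group G] {x y : G} (hx : orderOf x = 13) (hy : orderOf y = 3) (h : x * y = y * x) :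
    orderOf (x * y) = 39 := by
  have h1 := (show Commute x y from h).orderOf_mul_eq_mul_orderOf_of_coprime (by rw [hx, hy]; norm_num)
  rw [h1, hx, hy]

/-- **the abstract part** -/
theorem core {P : Type*} [Group P] [Finite P] (hP : Nat.card P = 351) (hno : ∀ g : P, orderOf g ≠ 39)
    (hna : ∀ T : Subgroup P, Nat.card T = 27 → ∃ a ∈ T, ∃ b ∈ T, a * b ≠ b * a) : False := by
  have f13 : Fact (Nat.Prime 13) := ⟨by norm_num⟩
  have f3 : Fact (Nat.Prime 3) := ⟨by norm_num⟩
  obtain ⟨x, hx⟩ := exists_prime_orderOf_dvd_card' (G := P) 13 (by rw [hP]; norm_num)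
  -- the centralizer of `x`
  have hC3 : ¬ 3 ∣ Nat.card (centralizer ({x} : Set P)) := by
    intro hd
    obtain ⟨y, hy⟩ := exists_prime_orderOf_dvd_card' (G := centralizer ({x} : Set P)) 3 hd
    refine hno (x * y) (pmul hx (by rw [Subgroup.orderOf_coe, hy]) ?_)
    exact (mem_centralizer_singleton_iff.1 y.2).symm
  have hC : Nat.card (centralizer ({x} : Set P)) = 13 := by
    have h1 : Nat.card (centralizer ({x} : Set P)) ∣ 3 ^ 3 * 13 := by
      have := Subgroup.card_subgroup_dvd_card (centralizer ({x} : Set P))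
      rwa [hP] at this
    have h2 : Nat.card (centralizer ({x} : Set P)) ∣ 13 :=
      Nat.Coprime.dvd_of_dvd_mul_left (Nat.Coprime.pow_right _ (Nat.coprime_comm.1
        ((Nat.Prime.coprime_iff_not_dvd (by norm_num)).2 hC3))) h1
    have h3 : 13 ∣ Nat.card (centralizer ({x} : Set P)) := by
      have h4 := Subgroup.orderOf_dvd_natCard (centralizer ({x} : Set P)) (x := x) (mem_centralizer_singleton_iff.2 rfl)
      rwa [hx] at h4
    exact Nat.dvd_antisymm h2 h3
  have hN := (Cfsg.Agent.H257.El.card_norm_mod (r := 13) (by norm_num) (by rw [hP]; norm_num) (by rw [hP]; norm_num) hC).1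
  rw [hP] at hN
  norm_num at hN
  have hZ : Nat.card (zpowers x) = 13 := by rw [Nat.card_zpowers, hx]
  obtain ⟨X, hX⟩ : ∃ X : Sylow 13 P, (X : Subgroup P) = zpowers x := by
    have hidx : ¬ 13 ∣ (zpowers x).index := by
      intro hd
      have h2 := (zpowers x).card_mul_index
      rw [hZ, hP] at h2
      obtain ⟨c, hc⟩ := hd
      omega
    have hpg : IsPGroup 13 (zpowers x) := IsPGroup.of_card (n := 1) (by rw [hZ, pow_one])
    exact ⟨hpg.toSylow hidx, rfl⟩
  have hNX : normalizer ((X : Subgroup P) : Set P) = zpowers x := by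
    rw [hX]
    refine (eq_of_le_of_card_ge le_normalizer ?_).symm
    rw [hZ, hN]
  have hNC : normalizer ((X : Subgroup P) : Set P) ≤ centralizer ((X : Subgroup P) : Set P) := by
    rw [hNX, hX]
    intro g hg
    rw [mem_centralizer_iff]
    intro k hk
    obtain ⟨i, rfl⟩ := mem_zpowers_iff.1 hg
    obtain ⟨j, rfl⟩ := mem_zpowers_iff.1 hk
    rw [← zpow_add, ← zpow_add, add_comm]
  have hcomp := MonoidHom.ker_transferSylow_isComplement' X hNC
  set T := (MonoidHom.transferSylow X hNC).ker with hT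
  have hTc : Nat.card T = 27 := by
    have h1 := hcomp.card_mul_card
    rw [hP, hX, hZ] at h1
    omega
  obtain ⟨a, ha, b, hb, hab⟩ := hna T hTc
  -- the centre of `T`
  set Z : Subgroup P := (center T).map T.subtype with hZdef
  have hZn : Z.Normal := by
    have hTn : T.Normal := by
      rw [hT]
      infer_instance
    have : (center T).Characteristic := inferInstance
    rw [hZdef]
    infer_instance
  have hZc : Nat.card Z = Nat.card (center T) :=
    (Nat.card_congr ((center T).equivMapOfInjective T.subtype T.subtype_injective).toEquiv).symm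
  have hTp : IsPGroup 3 T := IsPGroup.of_card (n := 3) (by rw [hTc]; norm_num)
  have hTnt : Nontrivial T := Finite.one_lt_card_iff_nontrivial.1 (by rw [hTc]; norm_num)
  have hZnt := hTp.center_nontrivial
  have hZlt : Nat.card (center T) ≤ 9 := by
    have h1 : Nat.card (center T) ∣ 3 ^ 3 := by
      have := Subgroup.card_subgroup_dvd_card (center T)
      rwa [hTc] at this
    obtain ⟨k, hk, hk'⟩ := (Nat.dvd_prime_pow Nat.prime_three).1 h1
    rcases (show k = 3 ∨ k ≤ 2 by omega) with h3 | h3
    · exfalso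
      subst h3
      have h4 : center T = ⊤ := eq_top_of_card_eq _ (by rw [hk', hTc]; norm_num)
      apply hab
      have h5 : (⟨a, ha⟩ : T) ∈ center T := by rw [h4]; trivial
      exact (congrArg Subtype.val (mem_center_iff.1 h5 ⟨b, hb⟩)).symm
    · rw [hk']
      calc 3 ^ k ≤ 3 ^ 2 := Nat.pow_le_pow_right (by norm_num) h3
        _ = 9 := by norm_num
  -- `x` centralizes `Z`
  have hxZ : ∀ z ∈ Z, x * z = z * x := by
    let φ : P →* MulAut Z := MulAut.conjNormal
    have h1 : orderOf (MulAut.toPerm Z (φ x)) ∣ 13 := by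
      rw [← hx]
      exact (orderOf_map_dvd (MulAut.toPerm Z) (φ x)).trans (orderOf_map_dvd φ x)
    have h2 : orderOf (MulAut.toPerm Z (φ x)) ∣ (Nat.card Z).factorial := by
      have h3 := orderOf_dvd_natCard (MulAut.toPerm Z (φ x))
      rwa [Nat.card_perm] at h3
    have h3 : orderOf (MulAut.toPerm Z (φ x)) = 1 := by
      rcases (Nat.dvd_prime (by norm_num)).1 h1 with h4 | h4
      · exact h4
      · exfalso
        rw [h4] at h2
        have h5 := (Nat.Prime.dvd_factorial (by norm_num)).1 h2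
        rw [hZc] at h5
        omega
    intro z hz
    have h4 : MulAut.toPerm Z (φ x) = 1 := orderOf_eq_one_iff.1 h3
    have h5 : MulAut.toPerm Z (φ x) ⟨z, hz⟩ = ⟨z, hz⟩ := by rw [h4]; rfl
    have h6 : x * z * x⁻¹ = z := congrArg Subtype.val h5
    exact mul_inv_eq_iff_eq_mul.1 h6
  obtain ⟨z, hz1⟩ := exists_ne (1 : center T)
  have h3Z : 3 ∣ Nat.card (center T) := by
    have h1 : Nat.card (center T) ∣ 3 ^ 3 := by
      have := Subgroup.card_subgroup_dvd_card (center T)
      rwa [hTc] at this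
    obtain ⟨k, hk, hk'⟩ := (Nat.dvd_prime_pow Nat.prime_three).1 h1
    rw [hk']
    refine dvd_pow_self 3 ?_
    rintro rfl
    rw [pow_zero] at hk'
    have := Finite.one_lt_card_iff_nontrivial.2 hZnt
    omega
  rw [← hZc] at h3Z
  obtain ⟨y, hy⟩ := exists_prime_orderOf_dvd_card' (G := Z) 3 h3Z
  exact hno (x * y) (pmul hx (by rw [Subgroup.orderOf_coe, hy]) (hxZ y y.2))

/-- a Sylow 3-subgroup is not abelian -/
theorem nonab {G : Type*} [Group G] [Finite G] (D : H87.TitsAbs.Dat G) (hc : Nat.card G = 17971200) {T : Subgroup G}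
    (hT : Nat.card T = 27) : ∃ a ∈ T, ∃ b ∈ T, a * b ≠ b * a := by
  have f3 : Fact (Nat.Prime 3) := ⟨by norm_num⟩
  have hidx : ∀ R : Subgroup G, Nat.card R = 27 → ¬ 3 ∣ R.index := by
    intro R hR hd
    have h2 := R.card_mul_index
    rw [hR, hc] at h2
    obtain ⟨c, hc⟩ := hd
    omega
  let ST : Sylow 3 G := (IsPGroup.of_card (G := T) (n := 3) (by rw [hT]; norm_num)).toSylow (hidx T hT)
  let SR : Sylow 3 G := (IsPGroup.of_card (G := D.R) (n := 3) (by rw [D.card_R]; norm_num)).toSylow (hidx D.R D.card_R)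
  obtain ⟨g, hg⟩ := MulAction.exists_smul_eq G SR ST
  have hmem : ∀ r ∈ D.R, g * r * g⁻¹ ∈ T := by
    intro r hr
    have h1 : g * r * g⁻¹ ∈ ((g • SR : Sylow 3 G) : Subgroup G) :=
      Subgroup.smul_mem_pointwise_smul r (MulAut.conj g) (SR : Subgroup G) hr
    rw [hg] at h1
    exact h1
  have ht : D.t ∈ D.R := ⟨1, 0, 0, by simp [H87.TitsAbs.Dat.m]⟩
  have hs : D.s ∈ D.R := ⟨0, 1, 0, by simp [H87.TitsAbs.Dat.m]⟩
  refine ⟨_, hmem _ ht, _, hmem _ hs, fun h => ?_⟩
  have h1 : D.t * D.s = D.s * D.t := by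
    have h2 : g * (D.t * D.s) * g⁻¹ = g * (D.s * D.t) * g⁻¹ := by
      calc _ = g * D.t * g⁻¹ * (g * D.s * g⁻¹) := by group
        _ = g * D.s * g⁻¹ * (g * D.t * g⁻¹) := h
        _ = _ := by group
    exact mul_left_cancel (mul_right_cancel h2)
  have h2 := D.ts
  rw [h1] at h2
  have h3 : D.z = 1 := by
    have h4 : 1 * (D.s * D.t) = D.z * (D.s * D.t) := by rw [one_mul]; exact h2
    exact (mul_right_cancel h4).symm
  have h4 : D.m 0 0 1 = 1 := by simp [H87.TitsAbs.Dat.m, h3]
  have := D.m_eq_one h4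
  omega

/-- **no subgroup of order 351** -/
theorem no_351_of {G : Type*} [Group G] [Finite G] (D : H87.TitsAbs.Dat G) (hc : Nat.card G = 17971200)
    (hno : ∀ g : G, orderOf g ≠ 39) (P : Subgroup G) : Nat.card P ≠ 351 := by
  intro hP
  refine core hP (fun g hg => hno g (by rw [Subgroup.orderOf_coe, hg])) fun T hT => ?_
  have h1 : Nat.card (T.map P.subtype) = 27 := by
    rw [← hT]
    exact (Nat.card_congr (T.equivMapOfInjective P.subtype P.subtype_injective).toEquiv).symm
  obtain ⟨_, ⟨a, ha, rfl⟩, _, ⟨b, hb, rfl⟩, hab⟩ := nonab D hc h1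
  exact ⟨a, ha, b, hb, fun h => hab (by rw [← map_mul, h, map_mul])⟩

end Cfsg.Agent.H309.TT
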