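import Cfsg.Agent.H309.TT.No351
import Cfsg.Agent.H369.Ti.Facts

/-!
# S4247: the Tits group has no subgroup of order 351 (helper309)
-/

set_option autoImplicit false

namespace Cfsg.Agent.H309.TT

open Subgroup

universe u

theorem no_351_titsGroup (P : Subgroup Cfsg.Lie.TitsGroup) : Nat.card P ≠ 351 := by
  have hF := H369.Ti.Facts.fs
  have hfin : Finite Cfsg.Lie.TitsGroup := Nat.finite_of_card_ne_zero (by rw [hF.card]; norm_num)
  obtain ⟨D⟩ := H87.TitsData.dat_tits
  refine no_351_of D hF.card (fun g hg => ?_) P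
  have h1 := hF.three g (by rw [hg]; norm_num)
  rw [hg] at h1
  norm_num at h1

/-- **The Tits group has no subgroup of order 351.** -/
theorem no_351 {S : Type u} [Group S] (h : Cfsg.Lie.IsoTits S) (P : Subgroup S) : Nat.card P ≠ 351 := by
  obtain ⟨e⟩ := h
  intro hP
  refine no_351_titsGroup (P.map e.toMonoidHom) ?_
  rw [← hP]
  exact (Nat.card_congr (P.equivMapOfInjective e.toMonoidHom e.injective).toEquiv).symm

end Cfsg.Agent.H309.TT
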